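import Mathlib
import Cfsg.Agent.Lib.Helper75.LW.Defs

/-!
# S0747 (a `k`-transitive group, `4 ≤ k < n`, has a `(k+1)`-set on which the set stabiliser
induces at least the alternating group): interface of the team project "KALT"

Uses `HT`, `Triv`, `NoInv`, `PS`, `SS` of `Cfsg.Agent.Lib.Helper75.LW`.
Only definitions and package statements (`Prop`s).
-/

set_option autoImplicit false

namespace Cfsg.Agent.Lib.Helper19.KAlt

open Cfsg.Agent.Lib.Helper75.LW

universe u

section defs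

variable {α : Type u}

/-- the conclusion of S0747 -/
def Good [DecidableEq α] (G : Subgroup (Equiv.Perm α)) (k : ℕ) : Prop :=
  ∃ Δ : Finset α, Δ.card = k + 1 ∧ ∀ σ : Equiv.Perm ↥Δ, σ ∈ alternatingGroup ↥Δ →
    ∃ g ∈ G, ∀ x : ↥Δ, g (x : α) = σ x

/-- the elements of `G` stabilising `F` act `k`-transitively on `F` -/
def HTOn (G : Subgroup (Equiv.Perm α)) (F : Finset α) (k : ℕ) : Prop :=
  ∀ x y : Fin k ↪ α, (∀ i, x i ∈ F) → (∀ i, y i ∈ F) →
    ∃ g ∈ G, (∀ a, g a ∈ F ↔ a ∈ F) ∧ ∀ i, g (x i) = y i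

/-- one step: inside `F`, fixing a `(k-1)`-set pointwise, any further point of `F` can be moved to
any other by an element of `G` stabilising `F` -/
def Step (G : Subgroup (Equiv.Perm α)) (F : Finset α) (k : ℕ) : Prop :=
  ∀ A : Finset α, A ⊆ F → A.card + 1 = k → ∀ u v : α, u ∈ F → v ∈ F → u ∉ A → v ∉ A →
    ∃ g ∈ G, (∀ a, g a ∈ F ↔ a ∈ F) ∧ (∀ a ∈ A, g a = a) ∧ g u = v

/-- `Q` is a nontrivial `p`-subgroup of `G` of maximal order among the `p`-subgroups of `G` fixing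
at least `k + 1` points, and `F` is its set of fixed points -/
structure MaxP (G : Subgroup (Equiv.Perm α)) (k p : ℕ) (Q : Subgroup (Equiv.Perm α))
    (F : Finset α) : Prop where
  prime : p.Prime
  le : Q ≤ G
  pgrp : IsPGroup p ↥Q
  ne : Q ≠ ⊥
  fix : ∀ a, a ∈ F ↔ ∀ q ∈ Q, q a = a
  big : k + 1 ≤ F.card
  max : ∀ R : Subgroup (Equiv.Perm α), R ≤ G → IsPGroup p ↥R →
    (∃ s : Finset α, s.card = k + 1 ∧ ∀ r ∈ R, ∀ a ∈ s, r a = a) → Nat.card R ≤ Nat.card Q

end defs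

/-! ## The reduction (not all `(k+1)`-point stabilisers trivial) -/

/-- [REDQ] a maximal `p`-subgroup fixing `k + 1` points -/
def PkgRedQ : Prop := ∀ {α : Type u} [Fintype α] [DecidableEq α] (G : Subgroup (Equiv.Perm α))
  (k : ℕ), ¬ Triv G (k + 1) →
  ∃ (p : ℕ) (Q : Subgroup (Equiv.Perm α)) (F : Finset α), MaxP G k p Q F

/-- [RED1] the Sylow case (Witt) -/
def PkgRed1 : Prop := ∀ {α : Type u} [Fintype α] [DecidableEq α] (G : Subgroup (Equiv.Perm α))
  (k p : ℕ) (Q : Subgroup (Equiv.Perm α)) (F : Finset α), MaxP G k p Q F → HT G k →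
  (∀ L : Finset α, L.card = k → ∀ R : Subgroup (Equiv.Perm α), R ≤ PS G L → IsPGroup p ↥R →
    Nat.card R ≤ Nat.card Q) →
  Step G F k

/-- [RED2] the non-Sylow case (orbit lengths mod `p`) -/
def PkgRed2 : Prop := ∀ {α : Type u} [Fintype α] [DecidableEq α] (G : Subgroup (Equiv.Perm α))
  (k p : ℕ) (Q : Subgroup (Equiv.Perm α)) (F : Finset α), MaxP G k p Q F → HT G k →
  (∃ L : Finset α, L.card = k ∧ ∃ R : Subgroup (Equiv.Perm α), R ≤ PS G L ∧ IsPGroup p ↥R ∧
    Nat.card Q < Nat.card R) →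
  Step G F k

/-- [SLIDE] one-step transitivity gives `k`-transitivity on `F` -/
def PkgSlide : Prop := ∀ {α : Type u} [Fintype α] [DecidableEq α] (G : Subgroup (Equiv.Perm α))
  (F : Finset α) (k : ℕ), 1 ≤ k → k + 1 ≤ F.card → Step G F k → HTOn G F k

/-- [RESTR] restriction to `F` -/
def PkgRestr : Prop := ∀ {α : Type u} [Fintype α] [DecidableEq α] (G : Subgroup (Equiv.Perm α))
  (F : Finset α) (k : ℕ), HTOn G F k →
  ∃ G' : Subgroup (Equiv.Perm ↥F), HT G' k ∧ (Good G' k → Good G k)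

/-! ## The semiregular case (all `(k+1)`-point stabilisers trivial) -/

/-- [TRANS] a `(k+1)`-transitive group induces the symmetric group on every `(k+1)`-set -/
def PkgTrans : Prop := ∀ {α : Type u} [Fintype α] [DecidableEq α] (G : Subgroup (Equiv.Perm α))
  (j : ℕ), HT G j → ∀ Δ : Finset α, Δ.card = j → ∀ σ : Equiv.Perm ↥Δ,
    ∃ g ∈ G, ∀ x : ↥Δ, g (x : α) = σ x

/-- [SEMIEVEN] `k`-point stabilisers of even order, semiregular outside -/
def PkgSemiEven : Prop := ∀ {α : Type u} [Fintype α] [DecidableEq α]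
  (G : Subgroup (Equiv.Perm α)) (k : ℕ), 1 ≤ k → HT G k → Triv G (k + 1) → ¬ NoInv G k →
  ∀ Δ : Finset α, Δ.card = k + 1 → ∀ σ : Equiv.Perm ↥Δ, ∃ g ∈ G, ∀ x : ↥Δ, g (x : α) = σ x

/-- [SEMIODD] `k`-point stabilisers nontrivial of odd order, semiregular outside -/
def PkgSemiOdd : Prop := ∀ {α : Type u} [Fintype α] [DecidableEq α]
  (G : Subgroup (Equiv.Perm α)) (k : ℕ), 4 ≤ k → HT G k → Triv G (k + 1) → NoInv G k →
  ¬ Triv G k → HT G (k + 1)

/-! ## The sharply `k`-transitive case -/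

/-- [SHN] Jordan (landed S0415, S0416, S0417) in the `HT`/`Triv` language -/
def PkgShN : Prop := ∀ {α : Type u} [Fintype α] [DecidableEq α] (G : Subgroup (Equiv.Perm α))
  (k : ℕ), 4 ≤ k → k < Fintype.card α → HT G k → Triv G k →
  Fintype.card α ≤ k + 2 ∨ (k = 4 ∧ Fintype.card α = 11) ∨ (k = 5 ∧ Fintype.card α = 12)

/-- [SHSMALL] degree `k + 1` or `k + 2` -/
def PkgShSmall : Prop := ∀ {α : Type u} [Fintype α] [DecidableEq α]
  (G : Subgroup (Equiv.Perm α)) (k : ℕ), 4 ≤ k → k < Fintype.card α → Fintype.card α ≤ k + 2 →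
  HT G k → Good G k

/-- [IDX] a subgroup of `Sym(β)`, `|β| ≥ 5`, of index `< |β|` contains `Alt(β)` -/
def PkgIdx : Prop := ∀ {β : Type u} [Fintype β] [DecidableEq β] (T : Subgroup (Equiv.Perm β)),
  5 ≤ Fintype.card β → (Fintype.card β).factorial < Fintype.card β * Nat.card T →
  alternatingGroup β ≤ T

/-- [ORB] if all `j`-set stabilisers are small, `G` is `j`-homogeneous and `C(n,j)` divides `|G|` -/
def PkgOrb : Prop := ∀ {α : Type u} [Fintype α] [DecidableEq α] (G : Subgroup (Equiv.Perm α))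
  (j c : ℕ), (∀ Δ : Finset α, Δ.card = j → Nat.card (SS G Δ) ≤ c) →
  (Fintype.card α).choose j * c < 2 * Nat.card G → (Fintype.card α).choose j ∣ Nat.card G

/-- [FAITH] the set stabiliser of a set with at least `j` points acts faithfully on it -/
def PkgFaith : Prop := ∀ {α : Type u} [Fintype α] [DecidableEq α] (G : Subgroup (Equiv.Perm α))
  (j : ℕ) (Δ : Finset α), Triv G j → j ≤ Δ.card →
  ∃ T : Subgroup (Equiv.Perm ↥Δ), Nat.card T = Nat.card (SS G Δ) ∧
    ∀ σ ∈ T, ∃ g ∈ G, ∀ x : ↥Δ, g (x : α) = σ x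

/-- [SHBIG] the two sporadic cases (degree 11 and 12) -/
def PkgShBig : Prop := ∀ {α : Type u} [Fintype α] [DecidableEq α] (G : Subgroup (Equiv.Perm α))
  (k : ℕ), HT G k → Triv G k → ((k = 4 ∧ Fintype.card α = 11) ∨ (k = 5 ∧ Fintype.card α = 12)) →
  Good G k

/-- the theorem in the `HT` language -/
def PkgMainK : Prop := ∀ {α : Type u} [Fintype α] [DecidableEq α] (G : Subgroup (Equiv.Perm α))
  (k : ℕ), 4 ≤ k → k < Fintype.card α → HT G k → Good G k

end Cfsg.Agent.Lib.Helper19.KAlt
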